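import Cfsg.Agent.H126.M3.Main

/-!
# Products of two elements of `SL_3(K)` with a fixed irreducible characteristic polynomial (helper374, S4173)

`GoodF s r l` : `l = X Y` with `X`, `Y` of characteristic polynomial `x³ - s x² + r x - 1` or `x³ - r x² + s x - 1`.
* `good_lu` : every `L U` is `GoodF s r` if the family `Sol s r` of quadratic equations is solvable (`4 ≤ |K|`).
-/

set_option autoImplicit false

namespace Cfsg.Agent.H374.TC

open Matrix Polynomial Cfsg.Agent.H126.M3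

universe u

variable {K : Type u} [Field K]

/-- `l` is a product of two elements with the prescribed characteristic polynomials -/
def GoodF (s r : K) (l : Matrix (Fin 3) (Fin 3) K) : Prop :=
  ∃ X Y : Matrix (Fin 3) (Fin 3) K, X.det = 1 ∧ Y.det = 1 ∧ l = X * Y ∧
    (X.charpoly = cu s r ∨ X.charpoly = cu r s) ∧ (Y.charpoly = cu s r ∨ Y.charpoly = cu r s)

theorem GoodF.conj {s r : K} {l l' R : Matrix (Fin 3) (Fin 3) K} (h : GoodF s r l') (hR : R.det ≠ 0)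
    (hl : l * R = R * l') : GoodF s r l := by
  obtain ⟨X, Y, hX, hY, rfl, hXi, hYi⟩ := h
  have hu : IsUnit R.det := isUnit_iff_ne_zero.2 hR
  have h1 : R * R⁻¹ = 1 := Matrix.mul_nonsing_inv _ hu
  have h2 : R⁻¹ * R = 1 := Matrix.nonsing_inv_mul _ hu
  let U : (Matrix (Fin 3) (Fin 3) K)ˣ := ⟨R, R⁻¹, h1, h2⟩
  have hc : ∀ M : Matrix (Fin 3) (Fin 3) K, (R * M * R⁻¹).charpoly = M.charpoly := fun M =>
    Matrix.charpoly_units_conj U M
  have hd : ∀ M : Matrix (Fin 3) (Fin 3) K, (R * M * R⁻¹).det = M.det := fun M => Matrix.det_units_conj U M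
  refine ⟨R * X * R⁻¹, R * Y * R⁻¹, by rw [hd, hX], by rw [hd, hY], ?_, by rw [hc]; exact hXi, by rw [hc]; exact hYi⟩
  calc l = l * R * R⁻¹ := by rw [mul_assoc, h1, mul_one]
    _ = R * X * (R⁻¹ * R) * Y * R⁻¹ := by rw [hl, h2]; simp only [mul_assoc, one_mul]
    _ = _ := by simp only [mul_assoc]

/-! ### characteristic polynomials -/

theorem cu_coeffs (s r : K) : (cu s r).coeff 2 = -s ∧ (cu s r).coeff 1 = r := by
  unfold cu
  constructor
  · simp [coeff_one]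
  · simp [coeff_one]

theorem charpoly_eq {M : Matrix (Fin 3) (Fin 3) K} (hd : M.det = 1) : M.charpoly = cu (M 0 0 + M 1 1 + M 2 2)
    (M 0 0 * M 1 1 - M 0 1 * M 1 0 + (M 0 0 * M 2 2 - M 0 2 * M 2 0) + (M 1 1 * M 2 2 - M 1 2 * M 2 1)) := by
  rw [charpoly_three, hd, cu]

theorem charpoly_inv {M : Matrix (Fin 3) (Fin 3) K} (hd : M.det = 1) {s r : K} (h : M.charpoly = cu s r) :
    (M⁻¹).charpoly = cu r s := by
  have h1 : M⁻¹ = M.adjugate := by rw [Matrix.inv_def, hd, Ring.inverse_one, one_smul]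
  have hd' : (M⁻¹).det = 1 := by rw [Matrix.det_nonsing_inv, hd, Ring.inverse_one]
  have h2 := charpoly_eq hd
  rw [h] at h2
  have c1 := congrArg (fun p => p.coeff 2) h2
  have c2 := congrArg (fun p => p.coeff 1) h2
  simp only [(cu_coeffs _ _).1] at c1
  simp only [(cu_coeffs _ _).2] at c2
  rw [charpoly_eq hd', h1, Matrix.adjugate_fin_three]
  have hd2 := hd
  rw [Matrix.det_fin_three] at hd2
  congr 1
  · simp
    rw [c2]
    ring
  · simp
    have c1' : s = M 0 0 + M 1 1 + M 2 2 := neg_inj.1 c1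
    rw [c1']
    linear_combination (M 0 0 + M 1 1 + M 2 2) * hd2

theorem goodF_cU {c : K} (hc : c ^ 3 = 1) {r s a b w : K} (h1 : a + b = c ^ 2 * s - r)
    (hw : w = a * (b + r) + s - c * r) : GoodF s r (c • Um a b w) := by
  refine ⟨Zi r s, c • (Zm r s * Um a b w), det_Zi r s, det_Y hc r s a b w, ?_, Or.inl (charpoly_Zi r s),
    Or.inl (charpoly_Y hc h1 hw)⟩
  rw [Matrix.mul_smul, ← mul_assoc, Zi_mul, one_mul]

theorem goodF_of_sim {s r : K} {N M : Matrix (Fin 3) (Fin 3) K} {c : K} (h : GoodF s r (c • (1 + M)))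
    (hs : ∃ R : Matrix (Fin 3) (Fin 3) K, R.det ≠ 0 ∧ N * R = R * M) : GoodF s r (c • (1 + N)) := by
  obtain ⟨R, hR, h1⟩ := hs
  refine h.conj hR ?_
  rw [Matrix.smul_mul, Matrix.mul_smul, add_mul, mul_add, h1, one_mul, mul_one]

theorem goodF_tr {N : Matrix (Fin 3) (Fin 3) K} (h2 : N ^ 2 = 0) (h1 : N ≠ 0) {c : K} (hc : c ^ 3 = 1) {s r : K}
    (hroot : ∀ x, (cu s r).eval x ≠ 0) : GoodF s r (c • (1 + N)) := by
  have hσ := sigma_ne hc hroot
  have hg := goodF_cU hc (a := c ^ 2 * s - r) (b := 0) (w := (c ^ 2 * s - r) * (0 + r) + s - c * r) (by ring) rfl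
  rw [Um_eq] at hg
  refine goodF_of_sim hg ?_
  obtain ⟨P, hP, hP'⟩ := sim_tr h2 h1
  obtain ⟨Q, hQ, hQ'⟩ := sim_tr (K := K)
    (N := !![0, c ^ 2 * s - r, (c ^ 2 * s - r) * (0 + r) + s - c * r; 0, 0, 0; 0, 0, 0]) (by
      rw [pow_two]
      ext i j
      fin_cases i <;> fin_cases j <;> simp [Matrix.mul_apply, Fin.sum_univ_three]) (by
      intro h
      apply hσ
      have := congrFun (congrFun h 0) 1
      simpa using this)
  exact sim_trans hP hP' hQ hQ'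

theorem goodF_reg {N : Matrix (Fin 3) (Fin 3) K} (h3 : N ^ 3 = 0) (h2 : N ^ 2 ≠ 0) {c : K} (hc : c ^ 3 = 1) {s r : K}
    (hK : ∀ x : K, ∃ a : K, a ≠ 0 ∧ a ≠ x) : GoodF s r (c • (1 + N)) := by
  obtain ⟨a, ha, ha'⟩ := hK (c ^ 2 * s - r)
  have hb : c ^ 2 * s - r - a ≠ 0 := sub_ne_zero.2 ha'.symm
  have hg := goodF_cU hc (a := a) (b := c ^ 2 * s - r - a) (w := a * (c ^ 2 * s - r - a + r) + s - c * r) (by ring) rfl
  rw [Um_eq] at hg
  refine goodF_of_sim hg ?_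
  obtain ⟨P, hP, hP'⟩ := sim_reg h3 h2
  generalize c ^ 2 * s - r - a = b at hb
  generalize a * (b + r) + s - c * r = w
  have e2 : (!![0, a, w; 0, 0, b; 0, 0, 0] : Matrix (Fin 3) (Fin 3) K) ^ 2 = !![0, 0, a * b; 0, 0, 0; 0, 0, 0] := by
    rw [pow_two]
    ext i j
    fin_cases i <;> fin_cases j <;> simp [Matrix.mul_apply, Fin.sum_univ_three]
  obtain ⟨Q, hQ, hQ'⟩ := sim_reg (K := K) (N := !![0, a, w; 0, 0, b; 0, 0, 0]) (by
      rw [pow_succ, e2]
      ext i j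
      fin_cases i <;> fin_cases j <;> simp [Matrix.mul_apply, Fin.sum_univ_three]) (by
      rw [e2]
      intro h
      have := congrFun (congrFun h 0) 2
      exact mul_ne_zero ha hb (by simpa using this))
  exact sim_trans hP hP' hQ hQ'

/-- the identity -/
theorem goodF_one (s r : K) : GoodF s r (1 : Matrix (Fin 3) (Fin 3) K) := by
  refine ⟨Zi r s, Zm r s, det_Zi r s, det_Zm r s, (Zi_mul r s).symm, Or.inl (charpoly_Zi r s), Or.inr ?_⟩
  rw [← inv_Zi]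
  exact charpoly_inv (det_Zi r s) (charpoly_Zi r s)

theorem goodF_simple [Finite K] (hq : 4 ≤ Nat.card K) {l : Matrix (Fin 3) (Fin 3) K} (hl : l.det = 1) {x : K}
    {p : K[X]} (hp : l.charpoly = (X - C x) * p) (hx : p.eval x ≠ 0) {s r : K} (hirr : Irreducible (cu s r)) :
    GoodF s r l := by
  obtain ⟨Z, h, hZ, hh, hZh⟩ := Cfsg.Agent.H864.Ore.gl_comm hq l hl x p hp hx (cu s r) hirr (cu_monic s r)
    (by rw [cu_natDegree, Fintype.card_fin]) (by rw [Fintype.card_fin]; norm_num)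
  have hZd : Z.det = 1 := by
    rw [Matrix.det_eq_sign_charpoly_coeff, hZ, cu_coeff, Fintype.card_fin]
    norm_num
  have huh : IsUnit h.det := by rw [hh]; exact isUnit_one
  have huZ : IsUnit Z.det := by rw [hZd]; exact isUnit_one
  have h1 : h * h⁻¹ = 1 := Matrix.mul_nonsing_inv _ huh
  have h2 : h⁻¹ * h = 1 := Matrix.nonsing_inv_mul _ huh
  have h3 : Z * Z⁻¹ = 1 := Matrix.mul_nonsing_inv _ huZ
  let U : (Matrix (Fin 3) (Fin 3) K)ˣ := ⟨h, h⁻¹, h1, h2⟩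
  have hc : ∀ M : Matrix (Fin 3) (Fin 3) K, (h * M * h⁻¹).charpoly = M.charpoly := fun M =>
    Matrix.charpoly_units_conj U M
  have hd : ∀ M : Matrix (Fin 3) (Fin 3) K, (h * M * h⁻¹).det = M.det := fun M => Matrix.det_units_conj U M
  refine ⟨h * Z * h⁻¹, Z⁻¹, by rw [hd, hZd], ?_, ?_, Or.inl (by rw [hc, hZ]), Or.inr (charpoly_inv hZd hZ)⟩
  · have := congrArg Matrix.det h3
    rwa [Matrix.det_mul, hZd, one_mul, Matrix.det_one] at this
  · rw [← hZh]
    calc l = l * (Z * Z⁻¹) := by rw [h3, mul_one]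
      _ = l * Z * (h * h⁻¹) * Z⁻¹ := by rw [h1]; simp only [mul_assoc, mul_one]
      _ = _ := by simp only [mul_assoc]

/-! ### irreducible elements -/

/-- solvability of the family of quadratic equations -/
def Sol (s r : K) : Prop := ∀ t u : K, (∀ x, x ^ 3 - t * x ^ 2 + u * x - 1 ≠ 0) → ∃ p c b e ip ic ib ie : K,
  p * ip = 1 ∧ c * ic = 1 ∧ b * ib = 1 ∧ e * ie = 1 ∧
  (s - p) * c - b * ip - (c ^ 3 - s * c ^ 2 + r * c - 1) * ic * ib = t ∧
  (r - ic) * ip + (p ^ 3 - s * p ^ 2 + r * p - 1) * ip * ip * ie - c * e = u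

theorem fam {s r p c b e ip ic ib ie : K} (hp : p * ip = 1) (hc : c * ic = 1) (hb : b * ib = 1) (he : e * ie = 1) :
    ∃ X Y : Matrix (Fin 3) (Fin 3) K, X.det = 1 ∧ Y.det = 1 ∧ X.charpoly = cu s r ∧ Y.charpoly = cu s r ∧
      (X * Y).charpoly = cu ((s - p) * c - b * ip - (c ^ 3 - s * c ^ 2 + r * c - 1) * ic * ib)
        ((r - ic) * ip + (p ^ 3 - s * p ^ 2 + r * p - 1) * ip * ip * ie - c * e) := by
  obtain ⟨F, hF⟩ : ∃ F, F = p ^ 3 - s * p ^ 2 + r * p - 1 := ⟨_, rfl⟩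
  obtain ⟨G, hG⟩ : ∃ G, G = c ^ 3 - s * c ^ 2 + r * c - 1 := ⟨_, rfl⟩
  rw [← hF, ← hG]
  obtain ⟨A, hA⟩ : ∃ A : Matrix (Fin 3) (Fin 3) K, A = !![p, 0, e; 0, 0, -ip; -(F * ip * ie), 1, s - p] := ⟨_, rfl⟩
  obtain ⟨B, hB⟩ : ∃ B : Matrix (Fin 3) (Fin 3) K, B = !![0, -ic, 0; 1, s - c, -(G * ic * ib); 0, b, c] := ⟨_, rfl⟩
  have dA : A.det = 1 := by
    rw [hA, Matrix.det_fin_three]
    simp
    linear_combination hp
  have dB : B.det = 1 := by
    rw [hB, Matrix.det_fin_three]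
    simp
    linear_combination hc
  have hAB : A * B = !![0, -(p * ic) + e * b, e * c; 0, -(ip * b), -(ip * c);
      1, F * ip * ie * ic + (s - c) + (s - p) * b, -(G * ic * ib) + (s - p) * c] := by
    rw [hA, hB]
    ext i j
    fin_cases i <;> fin_cases j <;> simp [Matrix.mul_apply, Fin.sum_univ_three]
  refine ⟨A, B, dA, dB, ?_, ?_, ?_⟩
  · rw [charpoly_eq dA, hA]
    congr 1
    · simp
    · simp
      rw [hF]
      linear_combination (p ^ 3 * ip - s * p ^ 2 * ip + r * p * ip - ip) * he + (p ^ 2 - s * p + r) * hp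
  · rw [charpoly_eq dB, hB]
    congr 1
    · simp
    · simp
      rw [hG]
      linear_combination (c ^ 3 * ic - s * c ^ 2 * ic + r * c * ic - ic) * hb + (c ^ 2 - s * c + r) * hc
  · rw [charpoly_eq (by rw [Matrix.det_mul, dA, dB, one_mul]), hAB]
    congr 1
    · simp
      ring
    · simp
      rw [hG, hF]
      linear_combination (ip * ic * (c ^ 3 - s * c ^ 2 + r * c - 1)) * hb +
        (ip * (c ^ 2 - s * c + r) + ip ^ 2 * ie * (p ^ 3 - s * p ^ 2 + r * p - 1)) * hc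

theorem exists_eq_of_irr [Finite K] {l M : Matrix (Fin 3) (Fin 3) K} (hl : l.det = 1) (hM : M.det = 1)
    (hi : Irreducible l.charpoly) (h : M.charpoly = l.charpoly) : ∃ R : Matrix (Fin 3) (Fin 3) K, R.det ≠ 0 ∧
      l * R = R * M := by
  obtain ⟨l', rfl⟩ : ∃ l' : SpecialLinearGroup (Fin 3) K, (l' : Matrix (Fin 3) (Fin 3) K) = l := ⟨⟨l, hl⟩, rfl⟩
  obtain ⟨M', rfl⟩ : ∃ M' : SpecialLinearGroup (Fin 3) K, (M' : Matrix (Fin 3) (Fin 3) K) = M := ⟨⟨M, hM⟩, rfl⟩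
  obtain ⟨g, hg⟩ := H150.MF.exists_conj (H150.MF.cls_of_irreducible (by rw [h]; exact hi))
    (H150.MF.cls_of_irreducible hi) h
  refine ⟨(g : Matrix (Fin 3) (Fin 3) K), by rw [g.2]; exact one_ne_zero, ?_⟩
  have h1 : l' * g = g * M' := by rw [hg]; group
  exact congrArg (fun x : SpecialLinearGroup (Fin 3) K => (x : Matrix (Fin 3) (Fin 3) K)) h1

theorem goodF_irr [Finite K] {s r : K} (hS : Sol s r) {l : Matrix (Fin 3) (Fin 3) K} (hl : l.det = 1)
    (h : Irreducible l.charpoly) : GoodF s r l := by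
  have h1 := charpoly_eq hl
  obtain ⟨t, ht⟩ : ∃ t, t = l 0 0 + l 1 1 + l 2 2 := ⟨_, rfl⟩
  obtain ⟨u, hu⟩ : ∃ u, u = l 0 0 * l 1 1 - l 0 1 * l 1 0 + (l 0 0 * l 2 2 - l 0 2 * l 2 0) +
    (l 1 1 * l 2 2 - l 1 2 * l 2 1) := ⟨_, rfl⟩
  rw [← ht, ← hu] at h1
  have h2 := (irr_iff l).1 h
  rw [h1] at h2
  obtain ⟨p, c, b, e, ip, ic, ib, ie, hp, hc, hb, he, e1, e2⟩ := hS t u (fun x hx => h2 x (by rw [cu_eval]; exact hx))
  obtain ⟨A, B, dA, dB, cA, cB, cAB⟩ := fam (s := s) (r := r) hp hc hb he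
  rw [e1, e2, ← h1] at cAB
  obtain ⟨R, hR, e3⟩ := exists_eq_of_irr hl (by rw [Matrix.det_mul, dA, dB, one_mul]) h cAB
  exact GoodF.conj ⟨A, B, dA, dB, rfl, Or.inl cA, Or.inl cB⟩ hR e3

/-- **the theorem** -/
theorem goodF [Finite K] (hq : 4 ≤ Nat.card K) {s r : K} (hroot : ∀ x, x ^ 3 - s * x ^ 2 + r * x - 1 ≠ 0)
    (hS : Sol s r) (l : Matrix (Fin 3) (Fin 3) K) (hl : l.det = 1)
    (hs : l = 1 ∨ ∀ c : K, l ≠ c • (1 : Matrix (Fin 3) (Fin 3) K)) : GoodF s r l := by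
  have hroot' : ∀ x, (cu s r).eval x ≠ 0 := fun x => by rw [cu_eval]; exact hroot x
  have hirr : Irreducible (cu s r) := irr_of_poly (cu_monic s r) (cu_natDegree s r) hroot'
  rcases hs with rfl | hs
  · exact goodF_one s r
  by_cases hl0 : ∀ x, l.charpoly.eval x ≠ 0
  · exact goodF_irr hS hl ((irr_iff l).2 hl0)
  push Not at hl0
  obtain ⟨x, hx⟩ := hl0
  obtain ⟨p, hp⟩ := dvd_iff_isRoot.2 hx
  have hpm : p.Monic := (monic_X_sub_C x).of_mul_monic_left (hp ▸ l.charpoly_monic)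
  by_cases hpx : p.eval x = 0
  swap
  · exact goodF_simple hq hl hp hpx hirr
  obtain ⟨p2, hp2⟩ := dvd_iff_isRoot.2 hpx
  have hpm2 : p2.Monic := (monic_X_sub_C x).of_mul_monic_left (hp2 ▸ hpm)
  have hd : p2.natDegree = 1 := by
    have h1 : l.charpoly.natDegree = 3 := by rw [Matrix.charpoly_natDegree_eq_dim, Fintype.card_fin]
    rw [hp, hp2, (monic_X_sub_C x).natDegree_mul ((monic_X_sub_C x).mul hpm2), (monic_X_sub_C x).natDegree_mul hpm2,
      natDegree_X_sub_C] at h1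
    omega
  obtain ⟨y, hy⟩ : ∃ y, p2 = X - C y := by
    refine ⟨-p2.coeff 0, ?_⟩
    have h1 := hpm2.as_sum
    rw [hd, Finset.sum_range_one] at h1
    rw [h1]
    simp
  by_cases hxy : y = x
  swap
  · refine goodF_simple (x := y) (p := (X - C x) * (X - C x)) hq hl ?_ ?_ hirr
    · rw [hp, hp2, hy]
      ring
    · simp only [eval_mul, eval_sub, eval_X, eval_C]
      exact mul_ne_zero (sub_ne_zero.2 hxy) (sub_ne_zero.2 hxy)
  -- all eigenvalues are equal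
  rw [hxy] at hy
  have hch : l.charpoly = (X - C x) ^ 3 := by
    rw [hp, hp2, hy]
    ring
  have hx3 : x ^ 3 = 1 := by
    have h1 := Matrix.det_eq_sign_charpoly_coeff l
    rw [hl, hch, Fintype.card_fin, coeff_zero_eq_eval_zero] at h1
    simp only [eval_pow, eval_sub, eval_X, eval_C] at h1
    rw [h1]
    ring
  have hCH : (l - x • (1 : Matrix (Fin 3) (Fin 3) K)) ^ 3 = 0 := by
    have h1 := Matrix.aeval_self_charpoly l
    rw [hch, map_pow, map_sub, aeval_X, aeval_C, Algebra.algebraMap_eq_smul_one] at h1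
    exact h1
  have hlN : l = x • (1 + (x ^ 2 • l - 1)) := by
    rw [add_sub_cancel, smul_smul, ← pow_succ', hx3, one_smul]
  have hN3 : (x ^ 2 • l - 1) ^ 3 = 0 := by
    have h1 : x ^ 2 • l - 1 = x ^ 2 • (l - x • (1 : Matrix (Fin 3) (Fin 3) K)) := by
      rw [smul_sub, smul_smul, ← pow_succ, hx3, one_smul]
    rw [h1, _root_.smul_pow, hCH, smul_zero]
  rw [hlN]
  by_cases h1 : (x ^ 2 • l - 1) = 0
  · exfalso
    apply hs x
    rw [h1, add_zero] at hlN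
    exact hlN
  by_cases h2 : (x ^ 2 • l - 1) ^ 2 = 0
  · exact goodF_tr h2 h1 hx3 hroot'
  · exact goodF_reg hN3 h2 hx3 (exists_ne_ne hq)

/-- the property for the products of a lower and an upper unitriangular matrix, with a fixed irreducible element -/
def M3F (K : Type u) [Field K] : Prop :=
  ∃ X₀ : SpecialLinearGroup (Fin 3) K, Irreducible (X₀ : Matrix (Fin 3) (Fin 3) K).charpoly ∧
    ∀ v ∈ H162.GaussSL.LT 3 K, ∀ u ∈ H162.GaussSL.UT 3 K, ∃ X Y : SpecialLinearGroup (Fin 3) K, v * u = X * Y ∧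
      ((X : Matrix (Fin 3) (Fin 3) K).charpoly = (X₀ : Matrix (Fin 3) (Fin 3) K).charpoly ∨
        (X : Matrix (Fin 3) (Fin 3) K).charpoly =
          ((X₀⁻¹ : SpecialLinearGroup (Fin 3) K) : Matrix (Fin 3) (Fin 3) K).charpoly) ∧
      ((Y : Matrix (Fin 3) (Fin 3) K).charpoly = (X₀ : Matrix (Fin 3) (Fin 3) K).charpoly ∨
        (Y : Matrix (Fin 3) (Fin 3) K).charpoly =
          ((X₀⁻¹ : SpecialLinearGroup (Fin 3) K) : Matrix (Fin 3) (Fin 3) K).charpoly)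

/-- from matrices -/
theorem M3F.of {K : Type u} [Field K] {s r : K} (hroot : ∀ x, x ^ 3 - s * x ^ 2 + r * x - 1 ≠ 0)
    (h : ∀ v ∈ H162.GaussSL.LT 3 K, ∀ u ∈ H162.GaussSL.UT 3 K,
      GoodF s r ((v * u : SpecialLinearGroup (Fin 3) K) : Matrix (Fin 3) (Fin 3) K)) : M3F K := by
  have hroot' : ∀ x, (cu s r).eval x ≠ 0 := fun x => by rw [cu_eval]; exact hroot x
  have hirr : Irreducible (cu s r) := irr_of_poly (cu_monic s r) (cu_natDegree s r) hroot'
  obtain ⟨X₀, hX₀⟩ : ∃ X₀ : SpecialLinearGroup (Fin 3) K, (X₀ : Matrix (Fin 3) (Fin 3) K) = Zi r s :=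
    ⟨⟨Zi r s, det_Zi r s⟩, rfl⟩
  have h1 : ((X₀⁻¹ : SpecialLinearGroup (Fin 3) K) : Matrix (Fin 3) (Fin 3) K).charpoly = cu r s := by
    rw [coe_inv', hX₀]
    exact charpoly_inv (det_Zi r s) (charpoly_Zi r s)
  have h2 : (X₀ : Matrix (Fin 3) (Fin 3) K).charpoly = cu s r := by rw [hX₀, charpoly_Zi]
  refine ⟨X₀, by rw [h2]; exact hirr, fun v hv u hu => ?_⟩
  obtain ⟨X, Y, dX, dY, e, cX, cY⟩ := h v hv u hu
  refine ⟨⟨X, dX⟩, ⟨Y, dY⟩, Subtype.ext e, ?_, ?_⟩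
  · rw [h1, h2]
    exact cX
  · rw [h1, h2]
    exact cY

/-- **lower times upper unitriangular** -/
theorem m3F_of_sol [Finite K] (hq : 4 ≤ Nat.card K) {s r : K} (hroot : ∀ x, x ^ 3 - s * x ^ 2 + r * x - 1 ≠ 0)
    (hS : Sol s r) : M3F K := by
  refine M3F.of hroot fun v hv u hu => goodF hq hroot hS _ (v * u).2 ?_
  by_cases h : v * u = 1
  · exact Or.inl (by rw [h]; exact Matrix.SpecialLinearGroup.coe_one)
  right
  intro c hc
  apply h
  -- the `(0, 0)` entry is `1`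
  have h1 : ((v * u : SpecialLinearGroup (Fin 3) K) : Matrix (Fin 3) (Fin 3) K) 0 0 = 1 := by
    have h2 : ((v * u : SpecialLinearGroup (Fin 3) K) : Matrix (Fin 3) (Fin 3) K) 0 0 =
        ∑ k, (v : Matrix (Fin 3) (Fin 3) K) 0 k * (u : Matrix (Fin 3) (Fin 3) K) k 0 := by
      rw [Matrix.SpecialLinearGroup.coe_mul, Matrix.mul_apply]
    have e1 : (u : Matrix (Fin 3) (Fin 3) K) 1 0 = 0 := hu.1 (i := 1) (j := 0) (by decide)
    have e2 : (u : Matrix (Fin 3) (Fin 3) K) 2 0 = 0 := hu.1 (i := 2) (j := 0) (by decide)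
    have e3 : (u : Matrix (Fin 3) (Fin 3) K) 0 0 = 1 := hu.2 0
    have e4 : (v : Matrix (Fin 3) (Fin 3) K) 0 0 = 1 := hv.2 0
    rw [h2, Fin.sum_univ_three, e1, e2, e3, e4]
    simp
  rw [hc, Matrix.smul_apply, Matrix.one_apply_eq, smul_eq_mul, mul_one] at h1
  apply Subtype.ext
  rw [hc, h1, one_smul]
  exact Matrix.SpecialLinearGroup.coe_one.symm

end Cfsg.Agent.H374.TC
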