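import Cfsg.Agent.H374.TC.Tab
import Cfsg.Agent.H194.Ore.RowEF
import Cfsg.Agent.H122.TC.Real

/-!
# Two fixed classes for `E₆(q)`, `F₄(q)`, `q ∈ {4, 5, 7, 8}` (helper374, S4173)

The frame of helper194 (`sg t * φ X`, `X ∈ SL₃(q)` irreducible) with a fixed characteristic polynomial `M3F`.
-/

set_option autoImplicit false
set_option linter.unusedSectionVars false

namespace Cfsg.Agent.H374.TC

open Cfsg.Lie Cfsg.Agent.TitsThree.KExcRT Cfsg.Agent.ChevalleyStructure Cfsg.Agent.Nodes.RGDChev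
open CoxeterSystem Cfsg.Agent.ChevalleyStructure.CoxeterGeom Cfsg.Agent.Tits.Roots Cfsg.Agent.Tits.Core
  Cfsg.Agent.Nodes.Reps Cfsg.Agent.Nodes.BNOf Cfsg.Agent.Nodes.RGDLib Cfsg.Agent.Nodes.Bruhat
  Cfsg.Agent.Nodes.OppDec Cfsg.Agent.Nodes.LeviDec Cfsg.Agent.Nodes.KindChev Cfsg.Agent.Nodes.ChevCls
  Cfsg.Agent.OddHalf.NI.ModelChev
  Cfsg.Agent.H162.GaussDec Cfsg.Agent.H162.GaussLevi Cfsg.Agent.H162.GaussSL Cfsg.Agent.H162.GaussMain
  Cfsg.Agent.H162.GaussExc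
  Cfsg.Agent.H928.Ore.Frame Cfsg.Agent.H928.Ore.Fix
open Cfsg.Agent.ChevalleyStructure.Elts
  Cfsg.Agent.ChevalleyStructure.RootVec Cfsg.Agent.ChevalleyStructure.NPerm
  Cfsg.Agent.ChevalleyStructure.CoxeterGeomTypes Cfsg.Agent.KFacts.RgdChevCoord
open Cfsg.Agent.H194.Ore Cfsg.Agent.H122.TwoC Cfsg.Agent.H129.TorusChar

universe u

section

variable {D : ChevalleyDatum} {l : ℕ} {M : CoxeterMatrix (Fin l)} (hp : IsType D l M) {K : Type u} [Field K]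
  {J : List (Fin l)} {m : Fin l → ℤ} {γ : Fin l → Fin l} {ω ω₁ : List (Fin l)} {r : Fin 3 → Fin 3 → ℕ} {ε : ℤ}
  {i j : Fin l} (hε : ε * ε = 1) (T : Tab D l J m γ ω ω₁ r ε i j) (t : Kˣ)
  {φ : Matrix.SpecialLinearGroup (Fin 3) K →* ↥(D.group K)}
  (hφ : ∀ a b (hab : a ≠ b) c, φ (Matrix.SpecialLinearGroup.transvection hab c) = xc hp (vec D l (r a b)) ((ε : K) * c))

include T hφ hε

/-- the classes of `sg φ X`, `sg⁻¹ φ X` -/
theorem cls [Finite K] (p : ℕ) [Fact p.Prime] [CharP K p] (hZ : Subgroup.center ↥(D.group K) = ⊥) {d : ℕ}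
    {B : Fin l → Fin l → ℤ} (hB : InvC D l d B) (hd : Odd d) {X₀ X : Matrix.SpecialLinearGroup (Fin 3) K}
    (h0 : Irreducible (X₀ : Matrix (Fin 3) (Fin 3) K).charpoly)
    (h : (X : Matrix (Fin 3) (Fin 3) K).charpoly = (X₀ : Matrix (Fin 3) (Fin 3) K).charpoly ∨
        (X : Matrix (Fin 3) (Fin 3) K).charpoly =
          ((X₀⁻¹ : Matrix.SpecialLinearGroup (Fin 3) K) : Matrix (Fin 3) (Fin 3) K).charpoly) :
    Irreducible (X : Matrix (Fin 3) (Fin 3) K).charpoly ∧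
      (∃ y, sg hp m t * φ X = y * (sg hp m t * φ X₀) * y⁻¹) ∧
      ∃ y, (sg hp m t)⁻¹ * φ X = y * (sg hp m t * φ X₀) * y⁻¹ := by
  have hi : Irreducible ((X₀⁻¹ : Matrix.SpecialLinearGroup (Fin 3) K) : Matrix (Fin 3) (Fin 3) K).charpoly := by
    rw [Cfsg.Agent.H126.M3.coe_inv']
    exact Cfsg.Agent.H126.M3.irr_inv h0 (Matrix.mul_nonsing_inv _ (by rw [X₀.2]; exact isUnit_one))
  have hX : Irreducible (X : Matrix (Fin 3) (Fin 3) K).charpoly := by
    rcases h with h | h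
    · rw [h]; exact h0
    · rw [h]; exact hi
  have e3 := wd_sg hp t p hZ T.wm
  have e4 := T.wd_phi hp hφ X
  have hw : wd hp K ω₁ * (sg hp m t * φ X) * (wd hp K ω₁)⁻¹ = (sg hp m t)⁻¹ * φ X := by
    calc wd hp K ω₁ * (sg hp m t * φ X) * (wd hp K ω₁)⁻¹
        = (wd hp K ω₁ * sg hp m t * (wd hp K ω₁)⁻¹) * (wd hp K ω₁ * φ X * (wd hp K ω₁)⁻¹) := by group
      _ = _ := by rw [e3, e4]
  -- one of the two is enough
  have key : (∃ y, sg hp m t * φ X = y * (sg hp m t * φ X₀) * y⁻¹) ∨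
      ∃ y, (sg hp m t)⁻¹ * φ X = y * (sg hp m t * φ X₀) * y⁻¹ := by
    rcases h with h | h
    · left
      obtain ⟨g, hg⟩ := Cfsg.Agent.H150.MF.exists_conj (Cfsg.Agent.H150.MF.cls_of_irreducible h0)
        (Cfsg.Agent.H150.MF.cls_of_irreducible hX) h.symm
      refine ⟨φ g, ?_⟩
      have e2 := T.comm hp t hφ g
      calc sg hp m t * φ X = (sg hp m t * φ g) * φ X₀ * (φ g)⁻¹ := by
            rw [hg, map_mul, map_mul, map_inv]; group
        _ = (φ g * sg hp m t) * φ X₀ * (φ g)⁻¹ := by rw [e2]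
        _ = _ := by group
    · right
      obtain ⟨g, hg⟩ := Cfsg.Agent.H150.MF.exists_conj (Cfsg.Agent.H150.MF.cls_of_irreducible hi)
        (Cfsg.Agent.H150.MF.cls_of_irreducible hX) h.symm
      obtain ⟨y, -, hy2⟩ := T.real hp t hφ hε p hB hd h0
      refine ⟨φ g * y, ?_⟩
      have e2 := T.comm hp t hφ g
      have e5 : (sg hp m t)⁻¹ * φ g = φ g * (sg hp m t)⁻¹ := by
        calc (sg hp m t)⁻¹ * φ g = (sg hp m t)⁻¹ * (φ g * sg hp m t) * (sg hp m t)⁻¹ := by group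
          _ = _ := by rw [← e2]; group
      have e6 : (sg hp m t)⁻¹ * (φ X₀)⁻¹ = (sg hp m t * φ X₀)⁻¹ := by
        rw [T.comm hp t hφ X₀, mul_inv_rev]
      calc (sg hp m t)⁻¹ * φ X = ((sg hp m t)⁻¹ * φ g) * (φ X₀)⁻¹ * (φ g)⁻¹ := by
            rw [hg, map_mul, map_mul, map_inv, map_inv]; group
        _ = φ g * ((sg hp m t)⁻¹ * (φ X₀)⁻¹) * (φ g)⁻¹ := by rw [e5]; group
        _ = φ g * (y * (sg hp m t * φ X₀) * y⁻¹) * (φ g)⁻¹ := by rw [e6, hy2]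
        _ = _ := by group
  refine ⟨hX, ?_⟩
  rcases key with ⟨y, hy⟩ | ⟨y, hy⟩
  · refine ⟨⟨y, hy⟩, wd hp K ω₁ * y, ?_⟩
    rw [← hw, hy]
    group
  · refine ⟨⟨(wd hp K ω₁)⁻¹ * y, ?_⟩, y, hy⟩
    rw [← hw] at hy
    calc sg hp m t * φ X = (wd hp K ω₁)⁻¹ * (wd hp K ω₁ * (sg hp m t * φ X) * (wd hp K ω₁)⁻¹) * wd hp K ω₁ := by group
      _ = (wd hp K ω₁)⁻¹ * (y * (sg hp m t * φ X₀) * y⁻¹) * wd hp K ω₁ := by rw [hy]
      _ = _ := by group

end

/-- **The row with fixed classes.** -/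
theorem tw_row {D : ChevalleyDatum} {l : ℕ} {M : CoxeterMatrix (Fin l)} (hp : IsType D l M) {K : Type u} [Field K]
    [Finite K] (hK : 4 ≤ Nat.card K) {J : List (Fin l)} {m : Fin l → ℤ} {γ : Fin l → Fin l} {ω ω₁ : List (Fin l)}
    {r : Fin 3 → Fin 3 → ℕ} {ε : ℤ} (hε : ε * ε = 1) {i j : Fin l} (T : Tab D l J m γ ω ω₁ r ε i j)
    (hS : IsSimpleGroup ↥(D.group K) ∧ ¬ IsMulCommutative ↥(D.group K))
    (hM : ∀ J : Finset (Fin l), J = ∅ ∨ J = Finset.univ ∨ ∃ a ∈ J, ∃ b, b ∉ J ∧ M a b ≠ 2)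
    {d : ℕ} {B : Fin l → Fin l → ℤ} (hB : InvC D l d B) (hd : Odd d) (hm3 : M3F K) : Tw ↥(D.group K) := by
  obtain ⟨p, hpc⟩ := CharP.exists K
  have : Fact p.Prime := ⟨(CharP.char_is_prime_or_zero K p).resolve_right (CharP.char_ne_zero_of_finite K p)⟩
  have := finite_W hp M.toCoxeterSystem
  have hZ := Cfsg.Agent.Nodes.ChevChart.center_eq_bot hS
  have hl : 0 < l := i.pos
  obtain ⟨φ, hφ⟩ := Cfsg.Agent.H162.GaussExcMain.exists_hom_D hp (K := K) hε T.ra T.rb T.rc T.rn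
  -- the unit
  obtain ⟨t, ht1, ht2⟩ : ∃ t : Kˣ, t ≠ 1 ∧ t * t ≠ 1 := by
    by_contra hcon
    push Not at hcon
    have h1 : ∀ x : K, x = 0 ∨ x = 1 ∨ x = -1 := by
      intro x
      by_cases hx : x = 0
      · exact .inl hx
      · right
        by_cases h1 : x = 1
        · exact .inl h1
        · right
          have h2 := hcon (Units.mk0 x hx) (fun h => h1 (by
            have := congrArg Units.val h
            simpa using this))
          have h3 : x * x = 1 := by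
            have := congrArg Units.val h2
            simpa using this
          rcases mul_self_eq_one_iff.1 h3 with h4 | h4
          · exact absurd h4 h1
          · exact h4
    classical
    have := Fintype.ofFinite K
    have h2 : (Finset.univ : Finset K) ⊆ {0, 1, -1} := by
      intro x _
      simp only [Finset.mem_insert, Finset.mem_singleton]
      exact h1 x
    have h3 := Finset.card_le_card h2
    rw [Finset.card_univ, ← Nat.card_eq_fintype_card] at h3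
    have h4 : ({0, 1, -1} : Finset K).card ≤ 3 := Finset.card_le_three
    omega
  obtain ⟨X₀, h0, hlu⟩ := hm3
  refine tw_of_levi hp hl hS hM (J := {k | k ∈ J}) (a := sg hp m t * φ X₀) (b := sg hp m t * φ X₀)
    fun v hv u hu => ?_
  obtain ⟨L, hL, rfl⟩ := T.lo hp hφ hε hv
  obtain ⟨U, hU, rfl⟩ := T.up hp hφ hε hu
  obtain ⟨X, Y, hXY, hcX, hcY⟩ := hlu L hL U hU
  obtain ⟨hX, hX1, -⟩ := cls hp hε T t hφ p hZ hB hd h0 hcX
  obtain ⟨hY, -, hY2⟩ := cls hp hε T t hφ p hZ hB hd h0 hcY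
  have hsT : sg hp m t ∈ LJ M.toCoxeterSystem hp.isCartan (TT D K) (XX D l K) {k | k ∈ J} := T_le_LJ (sg_mem hp m t)
  have hti : (sg hp m t)⁻¹ = sg hp m t⁻¹ := by
    refine inv_eq_of_mul_eq_one_right ?_
    unfold sg
    rw [← map_mul]
    convert map_one (th hp)
    funext k
    rw [Pi.mul_apply, inv_zpow, mul_inv_cancel]
    rfl
  refine ⟨sg hp m t * φ X, (sg hp m t)⁻¹ * φ Y, ?_, ⟨mul_mem hsT (T.range hp hφ X),
    mul_mem (inv_mem hsT) (T.range hp hφ Y), (T.nf hp t hφ hε ht1 ht2 hX).2, ?_⟩, hX1, hY2⟩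
  · rw [← map_mul, hXY, map_mul]
    calc φ X * φ Y = (sg hp m t)⁻¹ * (sg hp m t * φ X) * φ Y := by group
      _ = (sg hp m t)⁻¹ * (φ X * sg hp m t) * φ Y := by rw [T.comm hp t hφ]
      _ = (sg hp m t)⁻¹ * (φ X * (sg hp m t * φ Y)) := by group
      _ = (sg hp m t)⁻¹ * (φ X * (φ Y * sg hp m t)) := by rw [T.comm hp t hφ Y]
      _ = (sg hp m t)⁻¹ * (φ (X * Y) * sg hp m t) := by rw [map_mul]; group
      _ = φ (X * Y) := by rw [← T.comm hp t hφ]; group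
      _ = φ X * φ Y := map_mul _ _ _
      _ = (φ X * sg hp m t) * ((sg hp m t)⁻¹ * φ Y) := by group
      _ = _ := by rw [← T.comm hp t hφ]
  · rw [hti]
    exact (T.nf hp t⁻¹ hφ hε (by rwa [ne_eq, inv_eq_one]) (by
      rw [← mul_inv, ne_eq, inv_eq_one]
      exact ht2) hY).1

/-- **`E₆(q)`, `q ∈ {4, 5, 7, 8}`** -/
theorem tw_E6 {K : Type u} [Field K] [Finite K]
    (hK : Nat.card K = 4 ∨ Nat.card K = 5 ∨ Nat.card K = 7 ∨ Nat.card K = 8) : Tw ↥(chevE6.group K) :=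
  tw_row Cfsg.Agent.Nodes.KindE.isType6 (by omega) (by norm_num) tab6 (Cfsg.Agent.S1054.result chevE6 (by simp))
    Cfsg.Agent.Nodes.ChevChart.irr6 Cfsg.Agent.H129.TorusChar.invC_E6 (by decide) (m3F hK)

/-- **`F₄(q)`, `q ∈ {4, 5, 7, 8}`** -/
theorem tw_F4 {K : Type u} [Field K] [Finite K]
    (hK : Nat.card K = 4 ∨ Nat.card K = 5 ∨ Nat.card K = 7 ∨ Nat.card K = 8) : Tw ↥(chevF4.group K) :=
  tw_row Cfsg.Agent.Nodes.KindF.isType (by omega) (by norm_num) tabL (Cfsg.Agent.S1054.result chevF4 (by simp))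
    Cfsg.Agent.Nodes.ChevChart.irrF Cfsg.Agent.H129.TorusChar.invC_F4 (by decide) (m3F hK)

end Cfsg.Agent.H374.TC
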