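import Cfsg.Agent.H374.TC.Fam
import Cfsg.Agent.H374.Ore.Sl3

/-!
# The equations `Sol s r` over the fields with 4, 5, 7, 8 elements (helper374, S4173)

`FC K o φ` : codes `φ : ℕ → K` with arithmetic `o`; `m3F` : `M3F K` for `|K| ∈ {4, 5, 7, 8}`.
-/

set_option autoImplicit false

namespace Cfsg.Agent.H374.TC

universe u

/-- arithmetic of codes -/
structure Op where
  /-- the number of elements -/
  q : ℕ
  /-- addition -/
  ad : ℕ → ℕ → ℕ
  /-- multiplication -/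
  ml : ℕ → ℕ → ℕ
  /-- negation -/
  ng : ℕ → ℕ

/-- codes for the elements of the field -/
structure FC (K : Type u) [Field K] (o : Op) (φ : ℕ → K) : Prop where
  ad : ∀ a b, φ (o.ad a b) = φ a + φ b
  ml : ∀ a b, φ (o.ml a b) = φ a * φ b
  ng : ∀ a, φ (o.ng a) = -φ a
  one : φ 1 = 1
  zero : φ 0 = 0
  red : ∀ a, φ (a % o.q) = φ a
  surj : ∀ x, ∃ a < o.q, φ a = x

namespace Op

/-- difference -/
def sb (o : Op) (a b : ℕ) : ℕ := o.ad a (o.ng b)

/-- the value of the cubic -/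
def cb (o : Op) (s r x : ℕ) : ℕ := o.sb (o.ad (o.sb (o.ml x (o.ml x x)) (o.ml s (o.ml x x))) (o.ml r x)) 1

/-- equality -/
def eq (o : Op) (a b : ℕ) : Bool := a % o.q == b % o.q

/-- the test of one entry -/
def chkE (o : Op) (s r t u p c b e ip ic ib ie : ℕ) : Bool :=
  o.eq (o.ml p ip) 1 && o.eq (o.ml c ic) 1 && o.eq (o.ml b ib) 1 && o.eq (o.ml e ie) 1 &&
  o.eq (o.sb (o.sb (o.ml (o.sb s p) c) (o.ml b ip)) (o.ml (o.ml (o.cb s r c) ic) ib)) t &&
  o.eq (o.sb (o.ad (o.ml (o.sb r ic) ip) (o.ml (o.ml (o.ml (o.cb s r p) ip) ip) ie)) (o.ml c e)) u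

/-- the test of a table -/
def chk (o : Op) (s r : ℕ) (T : List (ℕ × ℕ × List ℕ)) : Bool :=
  ((List.range o.q).all fun x => !o.eq (o.cb s r x) 0) &&
  (List.range o.q).all fun t => (List.range o.q).all fun u =>
    ((List.range o.q).any fun x => o.eq (o.cb t u x) 0) ||
    T.any fun e => e.1 == t && e.2.1 == u && o.chkE s r t u (e.2.2.getD 0 0) (e.2.2.getD 1 0) (e.2.2.getD 2 0)
      (e.2.2.getD 3 0) (e.2.2.getD 4 0) (e.2.2.getD 5 0) (e.2.2.getD 6 0) (e.2.2.getD 7 0)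

end Op

section

variable {K : Type u} [Field K] {o : Op} {φ : ℕ → K}

theorem FC.sb (F : FC K o φ) (a b : ℕ) : φ (o.sb a b) = φ a - φ b := by
  rw [Op.sb, F.ad, F.ng, sub_eq_add_neg]

theorem FC.cb (F : FC K o φ) (s r x : ℕ) : φ (o.cb s r x) = φ x ^ 3 - φ s * φ x ^ 2 + φ r * φ x - 1 := by
  rw [Op.cb, F.sb, F.ad, F.sb, F.ml, F.ml, F.ml, F.ml, F.one]
  simp only [F.ml]
  ring

theorem FC.eq (F : FC K o φ) {a b : ℕ} (h : o.eq a b = true) : φ a = φ b := by
  rw [Op.eq, beq_iff_eq] at h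
  rw [← F.red a, h, F.red]

theorem FC.inj [Finite K] (F : FC K o φ) (hK : Nat.card K = o.q) {a b : ℕ} (h : φ a = φ b) : a % o.q = b % o.q := by
  have hq : 0 < o.q := by rw [← hK]; exact Nat.card_pos
  let g : Fin o.q → K := fun i => φ i
  have h1 : Function.Surjective g := by
    intro x
    obtain ⟨a, ha, e⟩ := F.surj x
    exact ⟨⟨a, ha⟩, e⟩
  have h2 : Function.Bijective g := by
    rw [Nat.bijective_iff_surjective_and_card]
    exact ⟨h1, by rw [Nat.card_fin, hK]⟩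
  have h3 : g ⟨a % o.q, Nat.mod_lt _ hq⟩ = g ⟨b % o.q, Nat.mod_lt _ hq⟩ := by
    show φ (a % o.q) = φ (b % o.q)
    rw [F.red, F.red, h]
  exact congrArg Fin.val (h2.1 h3)

theorem sol_of [Finite K] (F : FC K o φ) (hK : Nat.card K = o.q) {s r : ℕ} {T : List (ℕ × ℕ × List ℕ)}
    (h : o.chk s r T = true) : (∀ x, x ^ 3 - φ s * x ^ 2 + φ r * x - 1 ≠ 0) ∧ Sol (φ s) (φ r) := by
  rw [Op.chk, Bool.and_eq_true] at h
  obtain ⟨h1, h2⟩ := h
  constructor
  · intro x hx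
    obtain ⟨a, ha, rfl⟩ := F.surj x
    have h3 := List.all_eq_true.1 h1 a (List.mem_range.2 ha)
    rw [Bool.not_eq_true', Op.eq, beq_eq_false_iff_ne] at h3
    apply h3
    apply F.inj hK
    rw [F.cb, F.zero, hx]
  · intro t u hn
    obtain ⟨t, ht, rfl⟩ := F.surj t
    obtain ⟨u, hu, rfl⟩ := F.surj u
    have h3 := List.all_eq_true.1 (List.all_eq_true.1 h2 t (List.mem_range.2 ht)) u (List.mem_range.2 hu)
    rw [Bool.or_eq_true, List.any_eq_true, List.any_eq_true] at h3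
    rcases h3 with ⟨x, -, h4⟩ | ⟨⟨t', u', l⟩, -, h4⟩
    · exfalso
      have h5 := F.eq h4
      rw [F.cb, F.zero] at h5
      exact hn _ h5
    · rw [Bool.and_eq_true, Bool.and_eq_true, beq_iff_eq, beq_iff_eq] at h4
      obtain ⟨-, h5⟩ := h4
      simp only at h5
      generalize l.getD 0 0 = p at h5
      generalize l.getD 1 0 = c at h5
      generalize l.getD 2 0 = b at h5
      generalize l.getD 3 0 = e at h5
      generalize l.getD 4 0 = ip at h5
      generalize l.getD 5 0 = ic at h5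
      generalize l.getD 6 0 = ib at h5
      generalize l.getD 7 0 = ie at h5
      simp only [Op.chkE, Bool.and_eq_true] at h5
      obtain ⟨⟨⟨⟨⟨k1, k2⟩, k3⟩, k4⟩, k5⟩, k6⟩ := h5
      refine ⟨φ p, φ c, φ b, φ e, φ ip, φ ic, φ ib, φ ie, ?_, ?_, ?_, ?_, ?_, ?_⟩
      · rw [← F.ml, F.eq k1, F.one]
      · rw [← F.ml, F.eq k2, F.one]
      · rw [← F.ml, F.eq k3, F.one]
      · rw [← F.ml, F.eq k4, F.one]
      · have := F.eq k5
        rw [F.sb, F.sb, F.ml, F.sb, F.ml, F.ml, F.ml, F.cb] at this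
        exact this
      · have := F.eq k6
        rw [F.sb, F.ad, F.ml, F.sb, F.ml, F.ml, F.ml, F.cb, F.ml] at this
        exact this

end

/-! ### prime fields -/

/-- arithmetic modulo `p` -/
def opP (p : ℕ) : Op := ⟨p, fun a b => (a + b) % p, fun a b => a * b % p, fun a => (p - 1) * a % p⟩

theorem fc_prime {K : Type u} [Field K] [Finite K] {p : ℕ} [hp : Fact p.Prime] (hK : Nat.card K = p) :
    FC K (opP p) (fun n => (n : K)) := by
  obtain ⟨hch, hall⟩ := Cfsg.Agent.H374.Ore.Sl3.exists_cast hK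
  have hm : ((p - 1 : ℕ) : K) = -1 := by
    rw [Nat.cast_sub hp.out.one_le, CharP.cast_eq_zero, Nat.cast_one, zero_sub]
  have hr : ∀ a : ℕ, ((a % p : ℕ) : K) = a := fun a => (CharP.cast_eq_iff_mod_eq K p).2 (Nat.mod_mod _ _)
  exact
    { ad := fun a b => by
        show (((a + b) % p : ℕ) : K) = _
        rw [hr, Nat.cast_add]
      ml := fun a b => by
        show ((a * b % p : ℕ) : K) = _
        rw [hr, Nat.cast_mul]
      ng := fun a => by
        show (((p - 1) * a % p : ℕ) : K) = _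
        rw [hr, Nat.cast_mul, hm, neg_one_mul]
      one := Nat.cast_one
      zero := Nat.cast_zero
      red := hr
      surj := hall }

/-! ### four and eight elements -/

section

variable {K : Type u} [Field K]

/-- the bits -/
def bt (c : K) (b : Bool) : K := if b = true then c else 0

theorem bt_xor [CharP K 2] (c : K) (x y : Bool) : bt c (x ^^ y) = bt c x + bt c y := by
  cases x <;> cases y <;> simp [bt, CharTwo.add_self_eq_zero]

theorem bt_mul (d c : K) (x : Bool) : d * bt c x = bt (d * c) x := by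
  cases x <;> simp [bt]

/-- the code in base `1, w, w²` -/
def p8 (w : K) (a : ℕ) : K := bt 1 (a.testBit 0) + bt w (a.testBit 1) + bt (w ^ 2) (a.testBit 2)

/-- the code in base `1, w` -/
def p4 (w : K) (a : ℕ) : K := bt 1 (a.testBit 0) + bt w (a.testBit 1)

theorem p8_xor [CharP K 2] (w : K) (a b : ℕ) : p8 w (a ^^^ b) = p8 w a + p8 w b := by
  simp only [p8, Nat.testBit_xor, bt_xor]
  ring

theorem p4_xor [CharP K 2] (w : K) (a b : ℕ) : p4 w (a ^^^ b) = p4 w a + p4 w b := by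
  simp only [p4, Nat.testBit_xor, bt_xor]
  ring

/-- multiplication by `w` -/
def x8 (a : ℕ) : ℕ := (2 * a) ^^^ (bif a.testBit 2 then 3 else 0)

@[inherit_doc x8] def x4 (a : ℕ) : ℕ := (2 * a) ^^^ (bif a.testBit 1 then 3 else 0)

theorem tb2 (a : ℕ) : (2 * a).testBit 0 = false ∧ (2 * a).testBit 1 = a.testBit 0 ∧
    (2 * a).testBit 2 = a.testBit 1 := by
  refine ⟨?_, ?_, ?_⟩
  · simp
  · rw [show (1 : ℕ) = 0 + 1 from rfl, Nat.testBit_succ, Nat.mul_div_cancel_left _ (by norm_num)]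
  · rw [show (2 : ℕ) = 1 + 1 from rfl, Nat.testBit_succ, show (1 + 1) * a = 2 * a by ring,
      Nat.mul_div_cancel_left _ (by norm_num)]

theorem p8_x8 [CharP K 2] {w : K} (hw : w ^ 3 = w + 1) (a : ℕ) : p8 w (x8 a) = w * p8 w a := by
  obtain ⟨h0, h1, h2⟩ := tb2 a
  rw [x8, p8_xor]
  have e1 : p8 w (2 * a) = bt w (a.testBit 0) + bt (w ^ 2) (a.testBit 1) := by
    rw [p8, h0, h1, h2]
    simp [bt]
  have e2 : p8 w (bif a.testBit 2 then 3 else 0) = bt (w + 1) (a.testBit 2) := by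
    cases a.testBit 2
    · simp [p8, bt]
    · have t0 : (3 : ℕ).testBit 0 = true := by decide
      have t1 : (3 : ℕ).testBit 1 = true := by decide
      have t2 : (3 : ℕ).testBit 2 = false := by decide
      rw [cond_true, p8, t0, t1, t2]
      simp [bt]
      ring
  rw [e1, e2, p8, mul_add, mul_add, bt_mul, bt_mul, bt_mul, mul_one, ← pow_two, ← pow_succ', hw]

theorem p4_x4 [CharP K 2] {w : K} (hw : w ^ 2 = w + 1) (a : ℕ) : p4 w (x4 a) = w * p4 w a := by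
  obtain ⟨h0, h1, h2⟩ := tb2 a
  rw [x4, p4_xor]
  have e1 : p4 w (2 * a) = bt w (a.testBit 0) := by
    rw [p4, h0, h1]
    simp [bt]
  have e2 : p4 w (bif a.testBit 1 then 3 else 0) = bt (w + 1) (a.testBit 1) := by
    cases a.testBit 1
    · simp [p4, bt]
    · have t0 : (3 : ℕ).testBit 0 = true := by decide
      have t1 : (3 : ℕ).testBit 1 = true := by decide
      rw [cond_true, p4, t0, t1]
      simp [bt]
      ring
  rw [e1, e2, p4, mul_add, bt_mul, bt_mul, mul_one, ← pow_two, hw]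

/-- arithmetic for eight elements -/
def op8 : Op := ⟨8, fun a b => a ^^^ b, fun a b => (bif b.testBit 0 then a else 0) ^^^ (bif b.testBit 1 then x8 a else 0) ^^^
  (bif b.testBit 2 then x8 (x8 a) else 0), fun a => a⟩

/-- arithmetic for four elements -/
def op4 : Op := ⟨4, fun a b => a ^^^ b, fun a b => (bif b.testBit 0 then a else 0) ^^^ (bif b.testBit 1 then x4 a else 0),
  fun a => a⟩

theorem p8_zero (w : K) : p8 w 0 = 0 := by simp [p8, bt]
theorem p4_zero (w : K) : p4 w 0 = 0 := by simp [p4, bt]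

theorem p8_cond (w : K) (a : ℕ) (x : Bool) : p8 w (bif x then a else 0) = bt 1 x * p8 w a := by
  cases x
  · simp [bt, p8_zero]
  · simp [bt]

theorem p4_cond (w : K) (a : ℕ) (x : Bool) : p4 w (bif x then a else 0) = bt 1 x * p4 w a := by
  cases x
  · simp [bt, p4_zero]
  · simp [bt]

theorem bt_one (w : K) (x : Bool) : bt w x = w * bt 1 x := by
  cases x <;> simp [bt]

theorem fc8 [Finite K] (hK : Nat.card K = 8) [CharP K 2] {w : K} (hw : w ^ 3 = w + 1) : FC K op8 (p8 w) := by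
  have hml : ∀ a b, p8 w (op8.ml a b) = p8 w a * p8 w b := by
    intro a b
    show p8 w ((bif b.testBit 0 then a else 0) ^^^ (bif b.testBit 1 then x8 a else 0) ^^^
      (bif b.testBit 2 then x8 (x8 a) else 0)) = _
    rw [p8_xor, p8_xor, p8_cond, p8_cond, p8_cond, p8_x8 hw, p8_x8 hw, p8_x8 hw]
    rw [show p8 w b = bt 1 (b.testBit 0) + bt w (b.testBit 1) + bt (w ^ 2) (b.testBit 2) from rfl,
      bt_one w (b.testBit 1), bt_one (w ^ 2) (b.testBit 2)]
    ring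
  have hone : p8 w 1 = 1 := by
    have t0 : (1 : ℕ).testBit 0 = true := by decide
    have t1 : (1 : ℕ).testBit 1 = false := by decide
    have t2 : (1 : ℕ).testBit 2 = false := by decide
    rw [p8, t0, t1, t2]
    simp [bt]
  have hred : ∀ a, p8 w (a % 8) = p8 w a := by
    intro a
    have : ∀ i < 3, (a % 8).testBit i = a.testBit i := by
      intro i hi
      rw [show (8 : ℕ) = 2 ^ 3 by norm_num, Nat.testBit_mod_two_pow]
      simp [hi]
    rw [p8, p8, this 0 (by norm_num), this 1 (by norm_num), this 2 (by norm_num)]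
  refine ⟨fun a b => p8_xor w a b, hml, fun a => by show p8 w a = _; rw [CharTwo.neg_eq], hone, p8_zero w, hred, ?_⟩
  -- the codes are different
  have hinv : ∀ c : Fin 8, (c : ℕ) ≠ 0 → ∃ d : Fin 8, op8.ml c d % 8 = 1 := by decide
  have hne : ∀ c < 8, c ≠ 0 → p8 w c ≠ 0 := by
    intro c hc h0 h1
    obtain ⟨d, hd⟩ := hinv ⟨c, hc⟩ h0
    have h2 := hml c d
    rw [h1, zero_mul, ← hred, hd, hone] at h2
    exact one_ne_zero h2
  let g : Fin 8 → K := fun i => p8 w i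
  have hg : Function.Injective g := by
    intro a b hab
    have h1 : p8 w ((a : ℕ) ^^^ b) = 0 := by
      rw [p8_xor]
      have h2 : p8 w a = p8 w b := hab
      rw [h2, CharTwo.add_self_eq_zero]
    have h2 : (a : ℕ) ^^^ b = 0 := by
      by_contra h3
      exact hne _ (Nat.xor_lt_two_pow (n := 3) a.2 b.2) h3 h1
    exact Fin.ext (Nat.xor_eq_zero_iff.1 h2)
  have hs : Function.Bijective g := by
    rw [Nat.bijective_iff_injective_and_card]
    exact ⟨hg, by rw [Nat.card_fin, hK]⟩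
  intro x
  obtain ⟨a, ha⟩ := hs.2 x
  exact ⟨a, a.2, ha⟩

theorem fc4 [Finite K] (hK : Nat.card K = 4) [CharP K 2] {w : K} (hw : w ^ 2 = w + 1) : FC K op4 (p4 w) := by
  have hml : ∀ a b, p4 w (op4.ml a b) = p4 w a * p4 w b := by
    intro a b
    show p4 w ((bif b.testBit 0 then a else 0) ^^^ (bif b.testBit 1 then x4 a else 0)) = _
    rw [p4_xor, p4_cond, p4_cond, p4_x4 hw]
    rw [show p4 w b = bt 1 (b.testBit 0) + bt w (b.testBit 1) from rfl, bt_one w (b.testBit 1)]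
    ring
  have hone : p4 w 1 = 1 := by
    have t0 : (1 : ℕ).testBit 0 = true := by decide
    have t1 : (1 : ℕ).testBit 1 = false := by decide
    rw [p4, t0, t1]
    simp [bt]
  have hred : ∀ a, p4 w (a % 4) = p4 w a := by
    intro a
    have : ∀ i < 2, (a % 4).testBit i = a.testBit i := by
      intro i hi
      rw [show (4 : ℕ) = 2 ^ 2 by norm_num, Nat.testBit_mod_two_pow]
      simp [hi]
    rw [p4, p4, this 0 (by norm_num), this 1 (by norm_num)]
  refine ⟨fun a b => p4_xor w a b, hml, fun a => by show p4 w a = _; rw [CharTwo.neg_eq], hone, p4_zero w, hred, ?_⟩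
  have hinv : ∀ c : Fin 4, (c : ℕ) ≠ 0 → ∃ d : Fin 4, op4.ml c d % 4 = 1 := by decide
  have hne : ∀ c < 4, c ≠ 0 → p4 w c ≠ 0 := by
    intro c hc h0 h1
    obtain ⟨d, hd⟩ := hinv ⟨c, hc⟩ h0
    have h2 := hml c d
    rw [h1, zero_mul, ← hred, hd, hone] at h2
    exact one_ne_zero h2
  let g : Fin 4 → K := fun i => p4 w i
  have hg : Function.Injective g := by
    intro a b hab
    have h1 : p4 w ((a : ℕ) ^^^ b) = 0 := by
      rw [p4_xor]
      have h2 : p4 w a = p4 w b := hab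
      rw [h2, CharTwo.add_self_eq_zero]
    have h2 : (a : ℕ) ^^^ b = 0 := by
      by_contra h3
      exact hne _ (Nat.xor_lt_two_pow (n := 2) a.2 b.2) h3 h1
    exact Fin.ext (Nat.xor_eq_zero_iff.1 h2)
  have hs : Function.Bijective g := by
    rw [Nat.bijective_iff_injective_and_card]
    exact ⟨hg, by rw [Nat.card_fin, hK]⟩
  intro x
  obtain ⟨a, ha⟩ := hs.2 x
  exact ⟨a, a.2, ha⟩

theorem charTwo_of [Finite K] {k : ℕ} (hk : k ≠ 0) (hK : Nat.card K = 2 ^ k) : CharP K 2 := by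
  have := Fintype.ofFinite K
  have h1 : (2 : K) = 0 := by
    have h2 : ((Fintype.card K : ℕ) : K) = 0 := Nat.cast_card_eq_zero K
    rw [← Nat.card_eq_fintype_card, hK, Nat.cast_pow, Nat.cast_ofNat] at h2
    exact pow_eq_zero_iff hk |>.1 h2
  exact CharTwo.of_one_ne_zero_of_two_eq_zero one_ne_zero h1

theorem exists_w4 [Finite K] (hK : Nat.card K = 4) : ∃ w : K, w ^ 2 = w + 1 := by
  have := Fintype.ofFinite K
  have : CharP K 2 := charTwo_of (k := 2) (by norm_num) (by rw [hK]; norm_num)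
  obtain ⟨x, hx0, hx1⟩ : ∃ x : K, x ≠ 0 ∧ x ≠ 1 := by
    classical
    by_contra hcon
    push Not at hcon
    have h1 : (Finset.univ : Finset K) ⊆ {0, 1} := by
      intro a _
      rw [Finset.mem_insert, Finset.mem_singleton]
      by_cases ha : a = 0
      · exact Or.inl ha
      · exact Or.inr (hcon a ha)
    have h2 := (Finset.card_le_card h1).trans Finset.card_le_two
    rw [Finset.card_univ, ← Nat.card_eq_fintype_card] at h2
    omega
  have h1 : x ^ 3 = 1 := by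
    have h2 := FiniteField.pow_card_sub_one_eq_one x hx0
    rwa [← Nat.card_eq_fintype_card, hK] at h2
  have h3 : (x - 1) * (x ^ 2 + x + 1) = 0 := by linear_combination h1
  have h4 := (mul_eq_zero.1 h3).resolve_left (sub_ne_zero.2 hx1)
  have h5 : (2 : K) = 0 := CharTwo.two_eq_zero
  exact ⟨x, by linear_combination h4 - (x + 1) * h5⟩

theorem exists_w8 [Finite K] (hK : Nat.card K = 8) : ∃ w : K, w ^ 3 = w + 1 := by
  have := Fintype.ofFinite K
  have : CharP K 2 := charTwo_of (k := 3) (by norm_num) (by rw [hK]; norm_num)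
  obtain ⟨x, hx0, hx1⟩ : ∃ x : K, x ≠ 0 ∧ x ≠ 1 := by
    classical
    by_contra hcon
    push Not at hcon
    have h1 : (Finset.univ : Finset K) ⊆ {0, 1} := by
      intro a _
      rw [Finset.mem_insert, Finset.mem_singleton]
      by_cases ha : a = 0
      · exact Or.inl ha
      · exact Or.inr (hcon a ha)
    have h2 := (Finset.card_le_card h1).trans Finset.card_le_two
    rw [Finset.card_univ, ← Nat.card_eq_fintype_card] at h2
    omega
  have h5 : (2 : K) = 0 := CharTwo.two_eq_zero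
  have h1 : x ^ 7 = 1 := by
    have h2 := FiniteField.pow_card_sub_one_eq_one x hx0
    rwa [← Nat.card_eq_fintype_card, hK] at h2
  have h3 : (x - 1) * ((x ^ 3 + x + 1) * (x ^ 3 + x ^ 2 + 1)) = 0 := by
    linear_combination h1 + (x ^ 4 - x ^ 3) * h5
  have h4 := (mul_eq_zero.1 h3).resolve_left (sub_ne_zero.2 hx1)
  rcases mul_eq_zero.1 h4 with h6 | h6
  · exact ⟨x, by linear_combination h6 - (x + 1) * h5⟩
  · refine ⟨x⁻¹, ?_⟩
    have h7 : x * x⁻¹ = 1 := mul_inv_cancel₀ hx0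
    field_simp
    linear_combination h6 * (-1) + (1 + x ^ 2 * 0) * h5

end

/-! ### the tables -/

/-- the table for four elements -/
def T4 : List (ℕ × ℕ × List ℕ) := [(0, 1, [1, 1, 2, 2, 1, 1, 3, 3]), (0, 2, [2, 1, 1, 1, 3, 1, 1, 1]),
  (0, 3, [3, 1, 1, 1, 2, 1, 1, 1]), (1, 0, [1, 1, 1, 1, 1, 1, 1, 1]), (2, 0, [2, 1, 3, 2, 3, 1, 2, 3]),
  (3, 0, [2, 2, 3, 1, 3, 3, 2, 1])]

/-- the table for five elements -/
def T5 : List (ℕ × ℕ × List ℕ) := [(0, 1, [3, 1, 2, 2, 2, 1, 3, 3]), (0, 2, [1, 2, 1, 1, 1, 3, 1, 1]),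
  (1, 0, [1, 1, 4, 1, 1, 1, 4, 1]), (1, 3, [2, 2, 1, 1, 3, 3, 1, 1]), (1, 4, [1, 1, 4, 3, 1, 1, 4, 2]),
  (2, 0, [1, 1, 1, 1, 1, 1, 1, 1]), (3, 1, [1, 3, 1, 2, 1, 2, 1, 3]), (3, 4, [2, 3, 1, 2, 3, 2, 1, 3]),
  (4, 1, [1, 1, 2, 2, 1, 1, 3, 3]), (4, 3, [2, 2, 2, 1, 3, 3, 3, 1])]

/-- the table for seven elements -/
def T7 : List (ℕ × ℕ × List ℕ) := [(0, 1, [3, 2, 4, 1, 5, 4, 2, 1]), (0, 2, [1, 1, 2, 2, 1, 1, 4, 4]),
  (0, 4, [1, 2, 6, 2, 1, 4, 6, 4]), (1, 0, [1, 1, 6, 1, 1, 1, 6, 1]), (1, 3, [1, 4, 1, 1, 1, 2, 1, 1]),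
  (1, 5, [1, 1, 6, 4, 1, 1, 6, 2]), (2, 0, [2, 1, 3, 2, 4, 1, 5, 4]), (2, 5, [2, 5, 2, 1, 4, 3, 4, 1]),
  (2, 6, [1, 4, 3, 3, 1, 2, 5, 5]), (3, 1, [1, 3, 2, 1, 1, 5, 4, 1]), (3, 4, [1, 2, 1, 2, 1, 4, 1, 4]),
  (4, 0, [1, 1, 1, 1, 1, 1, 1, 1]), (4, 3, [1, 2, 3, 1, 1, 4, 5, 1]), (4, 6, [1, 3, 3, 3, 1, 5, 5, 5]),
  (5, 1, [1, 3, 1, 1, 1, 5, 1, 1]), (5, 2, [1, 1, 3, 2, 1, 1, 5, 4]), (6, 2, [1, 5, 1, 3, 1, 3, 1, 5]),
  (6, 4, [1, 2, 2, 2, 1, 4, 4, 4])]

/-- the table for eight elements -/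
def T8 : List (ℕ × ℕ × List ℕ) := [(0, 2, [1, 1, 4, 4, 1, 1, 7, 7]), (0, 4, [1, 3, 4, 5, 1, 6, 7, 2]),
  (0, 6, [1, 2, 1, 3, 1, 5, 1, 6]), (1, 2, [1, 1, 6, 4, 1, 1, 3, 7]), (1, 4, [2, 1, 3, 2, 5, 1, 6, 5]),
  (1, 6, [1, 2, 5, 3, 1, 5, 2, 6]), (2, 0, [1, 1, 1, 1, 1, 1, 1, 1]), (2, 1, [1, 2, 7, 4, 1, 5, 4, 7]),
  (2, 3, [1, 1, 1, 6, 1, 1, 1, 3]), (2, 7, [1, 1, 1, 3, 1, 1, 1, 6]), (3, 2, [1, 7, 1, 2, 1, 4, 1, 5]),
  (3, 4, [1, 3, 1, 5, 1, 6, 1, 2]), (4, 0, [2, 2, 4, 1, 5, 5, 7, 1]), (4, 1, [1, 2, 2, 4, 1, 5, 5, 7]),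
  (4, 3, [1, 3, 2, 2, 1, 6, 5, 5]), (4, 5, [1, 3, 2, 1, 1, 6, 5, 1]), (5, 4, [1, 7, 4, 5, 1, 4, 7, 2]),
  (5, 6, [1, 6, 5, 5, 1, 3, 2, 2]), (6, 0, [2, 4, 2, 4, 5, 7, 5, 7]), (6, 1, [1, 6, 7, 4, 1, 3, 4, 7]),
  (6, 5, [1, 3, 3, 1, 1, 6, 6, 1]), (6, 7, [1, 4, 1, 2, 1, 7, 1, 5]), (7, 2, [1, 7, 3, 2, 1, 4, 6, 5]),
  (7, 6, [1, 4, 5, 4, 1, 7, 2, 7])]


theorem chk4 : op4.chk 0 1 T4 = true := by decide +kernel
theorem chk5 : (opP 5).chk 0 1 T5 = true := by decide +kernel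
theorem chk7 : (opP 7).chk 0 1 T7 = true := by decide +kernel
theorem chk8 : op8.chk 0 2 T8 = true := by decide +kernel

/-- **the product lemma with a fixed class** -/
theorem m3F {K : Type u} [Field K] [Finite K] (hK : Nat.card K = 4 ∨ Nat.card K = 5 ∨ Nat.card K = 7 ∨ Nat.card K = 8) :
    M3F K := by
  rcases hK with h | h | h | h
  · have : CharP K 2 := charTwo_of (k := 2) (by norm_num) (by rw [h]; norm_num)
    obtain ⟨w, hw⟩ := exists_w4 h
    obtain ⟨h1, h2⟩ := sol_of (fc4 h hw) h chk4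
    exact m3F_of_sol (by omega) h1 h2
  · have : Fact (Nat.Prime 5) := ⟨by norm_num⟩
    obtain ⟨h1, h2⟩ := sol_of (fc_prime h) h chk5
    exact m3F_of_sol (by omega) h1 h2
  · have : Fact (Nat.Prime 7) := ⟨by norm_num⟩
    obtain ⟨h1, h2⟩ := sol_of (fc_prime h) h chk7
    exact m3F_of_sol (by omega) h1 h2
  · have : CharP K 2 := charTwo_of (k := 3) (by norm_num) (by rw [h]; norm_num)
    obtain ⟨w, hw⟩ := exists_w8 h
    obtain ⟨h1, h2⟩ := sol_of (fc8 h hw) h chk8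
    exact m3F_of_sol (by omega) h1 h2

end Cfsg.Agent.H374.TC
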